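/-
The matrix side for the covering of `PSp₄(F)`: the elements `lS`, `uS`, `mS` of
`Matrix.symplecticGroup (Fin 2) F`, the big cell, and the conjugacy of `lS C * x` and of
`x⁻¹ * uS B` to `x`, for `x = mS a` with `a` the companion matrix of a suitable quadratic.
-/
import Mathlib

set_option autoImplicit false

namespace Cfsg.Agent.Lib.SpCover.Mat

open Matrix
open scoped MatrixGroups

variable {F : Type*} [Field F]

/-- Lower unipotent elements. -/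
def lS (C : Matrix (Fin 2) (Fin 2) F) (hC : Cᵀ = C) : symplecticGroup (Fin 2) F :=
  ⟨fromBlocks 1 0 C 1, by
    rw [SymplecticGroup.fromBlocks_mem_iff]
    simp [hC]⟩

/-- Upper unipotent elements. -/
def uS (B : Matrix (Fin 2) (Fin 2) F) (hB : Bᵀ = B) : symplecticGroup (Fin 2) F :=
  ⟨fromBlocks 1 B 0 1, by
    rw [SymplecticGroup.fromBlocks_mem_iff]
    simp [hB]⟩

theorem transpose_inv_mul (P : GL (Fin 2) F) :
    (P.1)ᵀ * ((P⁻¹ : GL (Fin 2) F).1)ᵀ = 1 := by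
  rw [← transpose_mul]
  have : (P⁻¹ : GL (Fin 2) F).1 * P.1 = 1 := by
    rw [← Units.val_mul, inv_mul_cancel, Units.val_one]
  rw [this, transpose_one]

theorem inv_transpose_mul (P : GL (Fin 2) F) :
    ((P⁻¹ : GL (Fin 2) F).1)ᵀ * (P.1)ᵀ = 1 := by
  rw [← transpose_mul]
  have : P.1 * (P⁻¹ : GL (Fin 2) F).1 = 1 := by
    rw [← Units.val_mul, mul_inv_cancel, Units.val_one]
  rw [this, transpose_one]

/-- Levi elements. -/
def mS : GL (Fin 2) F →* symplecticGroup (Fin 2) F where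
  toFun P := ⟨fromBlocks P.1 0 0 ((P⁻¹ : GL (Fin 2) F).1)ᵀ, by
    rw [SymplecticGroup.fromBlocks_mem_iff]
    simpa using transpose_inv_mul P⟩
  map_one' := by
    apply Subtype.ext
    simp
  map_mul' P Q := by
    apply Subtype.ext
    simp [fromBlocks_multiply, _root_.mul_inv_rev, transpose_mul]

theorem coe_mS (P : GL (Fin 2) F) :
    (mS P).1 = fromBlocks P.1 0 0 ((P⁻¹ : GL (Fin 2) F).1)ᵀ := rfl

theorem coe_lS (C : Matrix (Fin 2) (Fin 2) F) (hC : Cᵀ = C) :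
    (lS C hC).1 = fromBlocks 1 0 C 1 := rfl

theorem coe_uS (B : Matrix (Fin 2) (Fin 2) F) (hB : Bᵀ = B) :
    (uS B hB).1 = fromBlocks 1 B 0 1 := rfl

theorem mS_mul_lS (P : GL (Fin 2) F) (C : Matrix (Fin 2) (Fin 2) F) (hC : Cᵀ = C)
    (hC' : ((P.1)ᵀ * C * P.1)ᵀ = (P.1)ᵀ * C * P.1) :
    mS P * lS ((P.1)ᵀ * C * P.1) hC' = lS C hC * mS P := by
  apply Subtype.ext
  show (mS P).1 * (lS _ hC').1 = (lS C hC).1 * (mS P).1
  rw [coe_mS, coe_lS, coe_lS, fromBlocks_multiply, fromBlocks_multiply]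
  simp only [mul_one, mul_zero, add_zero, zero_add, one_mul, zero_mul]
  rw [← Matrix.mul_assoc, ← Matrix.mul_assoc, inv_transpose_mul, Matrix.one_mul]

theorem mS_mul_uS (Q : GL (Fin 2) F) (B : Matrix (Fin 2) (Fin 2) F) (hB : Bᵀ = B)
    (hB' : (Q.1 * B * (Q.1)ᵀ)ᵀ = Q.1 * B * (Q.1)ᵀ) :
    uS (Q.1 * B * (Q.1)ᵀ) hB' * mS Q = mS Q * uS B hB := by
  apply Subtype.ext
  show (uS _ hB').1 * (mS Q).1 = (mS Q).1 * (uS B hB).1
  rw [coe_mS, coe_uS, coe_uS, fromBlocks_multiply, fromBlocks_multiply]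
  simp only [mul_one, mul_zero, add_zero, zero_add, one_mul, zero_mul]
  rw [Matrix.mul_assoc, transpose_inv_mul, Matrix.mul_one]

/-- Two-conjugate products. -/
def Prod2 {G : Type*} [Group G] (x g : G) : Prop :=
  ∃ u v : G, g = (u * x * u⁻¹) * (v * x * v⁻¹)

theorem Prod2.of_isConj {G : Type*} [Group G] {x y₁ y₂ : G} (h1 : IsConj x y₁) (h2 : IsConj x y₂) :
    Prod2 x (y₁ * y₂) := by
  obtain ⟨u, rfl⟩ := isConj_iff.1 h1
  obtain ⟨v, rfl⟩ := isConj_iff.1 h2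
  exact ⟨u, v, rfl⟩

theorem Prod2.conj {G : Type*} [Group G] {x g : G} (h : Prod2 x g) (P : G) :
    Prod2 x (P * g * P⁻¹) := by
  obtain ⟨u, v, rfl⟩ := h
  refine ⟨P * u, P * v, ?_⟩
  group

theorem isConj_of_mul {G : Type*} [Group G] {a b c : G} (h : c * a = b * c) : IsConj a b :=
  isConj_iff.2 ⟨c, by rw [h, mul_assoc, mul_inv_cancel, mul_one]⟩

/-- The big cell, in blocks. -/
theorem big_cell_aux (A : GL (Fin 2) F) (B₀ C₀ D₀ : Matrix (Fin 2) (Fin 2) F)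
    (hG : fromBlocks A.1 B₀ C₀ D₀ ∈ symplecticGroup (Fin 2) F) :
    ∃ (C B : Matrix (Fin 2) (Fin 2) F) (hC : Cᵀ = C) (hB : Bᵀ = B),
      fromBlocks A.1 B₀ C₀ D₀ = (lS C hC).1 * (mS A).1 * (uS B hB).1 := by
  have hG' := SymplecticGroup.transpose_mem hG
  rw [SymplecticGroup.fromBlocks_mem_iff] at hG
  rw [fromBlocks_transpose, SymplecticGroup.fromBlocks_mem_iff] at hG'
  obtain ⟨h1, h2, h3⟩ := hG
  obtain ⟨h4, h5, h6⟩ := hG'
  simp only [transpose_transpose] at h4 h5 h6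
  set A₁ := (A⁻¹ : GL (Fin 2) F).1 with hA₁
  have ha : A.1 * A₁ = 1 := by rw [hA₁, ← Units.val_mul, mul_inv_cancel, Units.val_one]
  have ha' : A₁ * A.1 = 1 := by rw [hA₁, ← Units.val_mul, inv_mul_cancel, Units.val_one]
  have hat : (A.1)ᵀ * A₁ᵀ = 1 := by rw [← transpose_mul, ha', transpose_one]
  have hat' : A₁ᵀ * (A.1)ᵀ = 1 := by rw [← transpose_mul, ha, transpose_one]
  have hC : (C₀ * A₁)ᵀ = C₀ * A₁ := by
    rw [transpose_mul]
    calc A₁ᵀ * C₀ᵀ = A₁ᵀ * C₀ᵀ * (A.1 * A₁) := by rw [ha, Matrix.mul_one]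
      _ = A₁ᵀ * (C₀ᵀ * A.1) * A₁ := by simp only [Matrix.mul_assoc]
      _ = A₁ᵀ * ((A.1)ᵀ * C₀) * A₁ := by rw [h1]
      _ = (A₁ᵀ * (A.1)ᵀ) * C₀ * A₁ := by simp only [Matrix.mul_assoc]
      _ = C₀ * A₁ := by rw [hat', Matrix.one_mul]
  have hB : (A₁ * B₀)ᵀ = A₁ * B₀ := by
    rw [transpose_mul]
    calc B₀ᵀ * A₁ᵀ = (A₁ * A.1) * B₀ᵀ * A₁ᵀ := by rw [ha', Matrix.one_mul]
      _ = A₁ * (A.1 * B₀ᵀ) * A₁ᵀ := by simp only [Matrix.mul_assoc]
      _ = A₁ * (B₀ * (A.1)ᵀ) * A₁ᵀ := by rw [h4]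
      _ = A₁ * B₀ * ((A.1)ᵀ * A₁ᵀ) := by simp only [Matrix.mul_assoc]
      _ = A₁ * B₀ := by rw [hat, Matrix.mul_one]
  refine ⟨C₀ * A₁, A₁ * B₀, hC, hB, ?_⟩
  rw [coe_lS, coe_mS, coe_uS, fromBlocks_multiply, fromBlocks_multiply]
  simp only [mul_one, mul_zero, add_zero, zero_add, one_mul, zero_mul]
  have hD : D₀ = C₀ * A₁ * A.1 * (A₁ * B₀) + A₁ᵀ := by
    have e1 : D₀ = A₁ᵀ * ((A.1)ᵀ * D₀) := by
      rw [← Matrix.mul_assoc, hat', Matrix.one_mul]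
    have e2 : (A.1)ᵀ * D₀ = 1 + C₀ᵀ * B₀ := by
      rw [← h3]; abel
    rw [e1, e2, Matrix.mul_add, Matrix.mul_one, ← Matrix.mul_assoc]
    have e3 : A₁ᵀ * C₀ᵀ = C₀ * A₁ := by rw [← hC, transpose_mul]
    rw [e3, Matrix.mul_assoc C₀ A₁ A.1, ha', Matrix.mul_one, add_comm, Matrix.mul_assoc]
  have hCA : C₀ * A₁ * A.1 = C₀ := by rw [Matrix.mul_assoc, ha', Matrix.mul_one]
  have hAB : A.1 * (A₁ * B₀) = B₀ := by rw [← Matrix.mul_assoc, ha, Matrix.one_mul]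
  rw [hCA, hAB, hD, hCA]

/-- The big cell. -/
theorem big_cell (G : symplecticGroup (Fin 2) F) (A : GL (Fin 2) F)
    (hA : G.1.toBlocks₁₁ = A.1) :
    ∃ (C B : Matrix (Fin 2) (Fin 2) F) (hC : Cᵀ = C) (hB : Bᵀ = B),
      G = lS C hC * mS A * uS B hB := by
  have h1 : G.1 = fromBlocks A.1 G.1.toBlocks₁₂ G.1.toBlocks₂₁ G.1.toBlocks₂₂ := by
    rw [← hA, fromBlocks_toBlocks]
  have h2 := G.2
  rw [h1] at h2
  obtain ⟨C, B, hC, hB, h⟩ := big_cell_aux A _ _ _ h2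
  refine ⟨C, B, hC, hB, Subtype.ext ?_⟩
  rw [h1, h]
  rfl

/-! ### The companion element -/

/-- The companion matrix of `X² - τ X + δ`. -/
def comp (τ δ : F) : Matrix (Fin 2) (Fin 2) F := !![0, -δ; 1, τ]

/-- The inverse of the companion matrix. -/
def compInv (τ δ : F) : Matrix (Fin 2) (Fin 2) F := !![τ * δ⁻¹, 1; -δ⁻¹, 0]

/-- The companion matrix as an element of `GL₂`. -/
def compGL (τ δ : F) (hδ : δ ≠ 0) : GL (Fin 2) F where
  val := comp τ δ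
  inv := compInv τ δ
  val_inv := by
    ext i j
    fin_cases i <;> fin_cases j <;> simp [comp, compInv, Matrix.mul_apply, Fin.sum_univ_two, hδ]
  inv_val := by
    ext i j
    fin_cases i <;> fin_cases j <;> simp [comp, compInv, Matrix.mul_apply, Fin.sum_univ_two, hδ]

theorem compGL_inv_val (τ δ : F) (hδ : δ ≠ 0) :
    ((compGL τ δ hδ)⁻¹ : GL (Fin 2) F).1 = compInv τ δ := rfl

theorem solve2 (a b c d e f : F) (h : a * d - b * c ≠ 0) :
    ∃ x y : F, a * x + b * y = e ∧ c * x + d * y = f := by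
  have hi := mul_inv_cancel₀ h
  generalize (a * d - b * c)⁻¹ = i at hi
  refine ⟨(d * e - b * f) * i, (a * f - c * e) * i, ?_, ?_⟩
  · linear_combination e * hi
  · linear_combination f * hi

theorem isConj_lS (τ δ : F) (hδ : δ ≠ 0) (hD : (δ - 1) * (τ ^ 2 - (δ + 1) ^ 2) ≠ 0)
    (C : Matrix (Fin 2) (Fin 2) F) (hC : Cᵀ = C) :
    IsConj (mS (compGL τ δ hδ)) (lS C hC * mS (compGL τ δ hδ)) := by
  have h01 : C 1 0 = C 0 1 := by
    have := congrFun (congrFun hC 0) 1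
    simpa using this
  set c₁ := C 0 0
  set c₂ := C 0 1
  set c₃ := C 1 1
  obtain ⟨x, y, e1, e2⟩ := solve2 τ (-(δ + 1)) (1 - δ ^ 2) (τ * (δ - 1)) (-δ * c₂)
    (-δ ^ 2 * c₁ + δ * τ * c₂ - c₃) (by intro h0; apply hD; linear_combination h0)
  set z := x + c₃ with hz
  have hR : (!![x, y; y, z] : Matrix (Fin 2) (Fin 2) F)ᵀ = !![x, y; y, z] := by
    ext i j
    fin_cases i <;> fin_cases j <;> simp
  apply isConj_of_mul (c := lS _ hR)
  apply Subtype.ext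
  show (lS _ hR).1 * (mS _).1 = (lS C hC).1 * (mS _).1 * (lS _ hR).1
  rw [coe_lS, coe_lS, coe_mS, fromBlocks_multiply, fromBlocks_multiply, fromBlocks_multiply,
    compGL_inv_val]
  simp only [mul_one, mul_zero, add_zero, zero_add, one_mul, zero_mul]
  have key : !![x, y; y, z] * (compGL τ δ hδ).1 =
      C * (compGL τ δ hδ).1 + (compInv τ δ)ᵀ * !![x, y; y, z] := by
    show !![x, y; y, z] * comp τ δ = C * comp τ δ + (compInv τ δ)ᵀ * !![x, y; y, z]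
    have hCe : C = !![c₁, c₂; c₂, c₃] := by
      rw [Matrix.eta_fin_two C, h01]
    rw [hCe]
    ext i j
    fin_cases i <;> fin_cases j <;>
      simp [comp, compInv, Matrix.mul_apply, Fin.sum_univ_two, Matrix.add_apply] <;> try field_simp
    · linear_combination (-1 : F) * e1
    · rw [hz]
      linear_combination e2
    · rw [hz]
      ring
    · rw [hz]
      linear_combination e1
  rw [key]

theorem isConj_uS (τ δ : F) (hδ : δ ≠ 0) (hD : (δ - 1) * (τ ^ 2 - (δ + 1) ^ 2) ≠ 0)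
    (B : Matrix (Fin 2) (Fin 2) F) (hB : Bᵀ = B) :
    IsConj (mS (compGL τ δ hδ)⁻¹) (mS (compGL τ δ hδ)⁻¹ * uS B hB) := by
  have h01 : B 1 0 = B 0 1 := by
    have := congrFun (congrFun hB 0) 1
    simpa using this
  set c₁ := B 0 0
  set c₂ := B 0 1
  set c₃ := B 1 1
  obtain ⟨y, z, e1, e2⟩ := solve2 (δ + 1) (δ * τ) (τ * (δ - 1)) (δ * (δ ^ 2 - 1)) (-c₂)
    (δ * (c₁ + c₃) + τ * c₂) (by
      intro h0
      apply mul_ne_zero hδ hD
      linear_combination (-1 : F) * h0)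
  set x := δ ^ 2 * z - c₁ with hx
  have hS : (!![x, y; y, z] : Matrix (Fin 2) (Fin 2) F)ᵀ = !![x, y; y, z] := by
    ext i j
    fin_cases i <;> fin_cases j <;> simp
  apply isConj_of_mul (c := uS _ hS)
  apply Subtype.ext
  show (uS _ hS).1 * (mS _).1 = (mS _).1 * (uS B hB).1 * (uS _ hS).1
  rw [coe_uS, coe_uS, coe_mS, fromBlocks_multiply, fromBlocks_multiply, fromBlocks_multiply, inv_inv,
    compGL_inv_val]
  simp only [mul_one, mul_zero, add_zero, zero_add, one_mul, zero_mul]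
  have key : !![x, y; y, z] * ((compGL τ δ hδ).1)ᵀ =
      compInv τ δ * !![x, y; y, z] + compInv τ δ * B := by
    show !![x, y; y, z] * (comp τ δ)ᵀ = compInv τ δ * !![x, y; y, z] + compInv τ δ * B
    have hBe : B = !![c₁, c₂; c₂, c₃] := by
      rw [Matrix.eta_fin_two B, h01]
    rw [hBe]
    ext i j
    fin_cases i <;> fin_cases j <;>
      simp [comp, compInv, Matrix.mul_apply, Fin.sum_univ_two, Matrix.add_apply] <;> try field_simp
    · rw [hx]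
      linear_combination (-δ) * e1
    · rw [hx]
      linear_combination e2
    · rw [hx]
      ring
    · linear_combination e1
  rw [key]

/-- The transpose inverse of the companion element. -/
def compTGL (τ δ : F) (hδ : δ ≠ 0) : GL (Fin 2) F where
  val := (compInv τ δ)ᵀ
  inv := (comp τ δ)ᵀ
  val_inv := inv_transpose_mul (compGL τ δ hδ)
  inv_val := transpose_inv_mul (compGL τ δ hδ)

/-- The diagonal element conjugating the transpose inverse to the inverse. -/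
def diagGL (δ : F) (hδ : δ ≠ 0) : GL (Fin 2) F where
  val := !![-δ, 0; 0, 1]
  inv := !![-δ⁻¹, 0; 0, 1]
  val_inv := by
    ext i j
    fin_cases i <;> fin_cases j <;> simp [Matrix.mul_apply, Fin.sum_univ_two, hδ]
  inv_val := by
    ext i j
    fin_cases i <;> fin_cases j <;> simp [Matrix.mul_apply, Fin.sum_univ_two, hδ]

theorem isConj_inv (τ δ : F) (hδ : δ ≠ 0) :
    IsConj (mS (compGL τ δ hδ)) (mS (compGL τ δ hδ)⁻¹) := by
  have h1 : IsConj (mS (compGL τ δ hδ)) (mS (compTGL τ δ hδ)) := by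
    apply isConj_of_mul (c := SymplecticGroup.symJ (Fin 2) F)
    apply Subtype.ext
    show (J (Fin 2) F) * (mS _).1 = (mS _).1 * J (Fin 2) F
    rw [coe_mS, coe_mS, J, fromBlocks_multiply, fromBlocks_multiply]
    simp only [mul_one, mul_zero, add_zero, zero_add, one_mul, zero_mul, neg_mul, mul_neg, neg_zero]
    rfl
  refine h1.trans ?_
  apply isConj_of_mul (c := mS (diagGL δ hδ))
  rw [← map_mul, ← map_mul]
  congr 1
  apply Units.ext
  show !![-δ, 0; 0, 1] * (compInv τ δ)ᵀ = compInv τ δ * !![-δ, 0; 0, 1]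
  ext i j
  fin_cases i <;> fin_cases j <;>
    simp [compInv, Matrix.mul_apply, Fin.sum_univ_two, hδ] <;> try field_simp

/-- Products of the two factors, in the cell of `A = (P a P⁻¹) (Q a⁻¹ Q⁻¹)`. -/
theorem prod2_cell (τ δ : F) (hδ : δ ≠ 0) (hD : (δ - 1) * (τ ^ 2 - (δ + 1) ^ 2) ≠ 0)
    (P Q : GL (Fin 2) F) (C B : Matrix (Fin 2) (Fin 2) F) (hC : Cᵀ = C) (hB : Bᵀ = B) :
    Prod2 (mS (compGL τ δ hδ))
      (lS C hC * mS (P * compGL τ δ hδ * P⁻¹ * (Q * (compGL τ δ hδ)⁻¹ * Q⁻¹)) * uS B hB) := by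
  have hC' : ((P.1)ᵀ * C * P.1)ᵀ = (P.1)ᵀ * C * P.1 := by
    simp [transpose_mul, hC, Matrix.mul_assoc]
  set Q₁ := (Q⁻¹ : GL (Fin 2) F).1 with hQ₁
  have hq : Q.1 * Q₁ = 1 := by rw [hQ₁, ← Units.val_mul, mul_inv_cancel, Units.val_one]
  have hqt : Q₁ᵀ * (Q.1)ᵀ = 1 := by rw [← transpose_mul, hq, transpose_one]
  have hB' : (Q₁ * B * Q₁ᵀ)ᵀ = Q₁ * B * Q₁ᵀ := by
    simp [transpose_mul, hB, Matrix.mul_assoc]
  have hB'' : (Q.1 * (Q₁ * B * Q₁ᵀ) * (Q.1)ᵀ)ᵀ = Q.1 * (Q₁ * B * Q₁ᵀ) * (Q.1)ᵀ := by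
    simp [transpose_mul, hB, Matrix.mul_assoc]
  have hBe : Q.1 * (Q₁ * B * Q₁ᵀ) * (Q.1)ᵀ = B := by
    calc Q.1 * (Q₁ * B * Q₁ᵀ) * (Q.1)ᵀ = (Q.1 * Q₁) * B * (Q₁ᵀ * (Q.1)ᵀ) := by
          simp only [Matrix.mul_assoc]
      _ = B := by rw [hq, hqt, Matrix.one_mul, Matrix.mul_one]
  have hu : uS B hB = uS _ hB'' := by
    apply Subtype.ext
    simp only [coe_uS, hBe]
  have hQu : uS B hB * mS Q = mS Q * uS _ hB' := by
    rw [hu]
    exact mS_mul_uS Q _ hB' hB''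
  have h1 : IsConj (mS (compGL τ δ hδ)) (lS C hC * mS (P * compGL τ δ hδ * P⁻¹)) := by
    refine (isConj_lS τ δ hδ hD _ hC').trans ?_
    apply isConj_of_mul (c := mS P)
    rw [map_mul, map_mul, map_inv, ← mul_assoc, mS_mul_lS P C hC hC']
    group
  have h2 : IsConj (mS (compGL τ δ hδ)) (mS (Q * (compGL τ δ hδ)⁻¹ * Q⁻¹) * uS B hB) := by
    refine (isConj_inv τ δ hδ).trans ((isConj_uS τ δ hδ hD _ hB').trans ?_)
    apply isConj_of_mul (c := mS Q)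
    have e : mS (Q * (compGL τ δ hδ)⁻¹ * Q⁻¹) = mS Q * mS (compGL τ δ hδ)⁻¹ * (mS Q)⁻¹ := by
      rw [map_mul, map_mul, map_inv mS Q]
    rw [e, mul_assoc _ (uS B hB), hQu]
    group
  have := Prod2.of_isConj h1 h2
  convert this using 1
  rw [map_mul mS (P * compGL τ δ hδ * P⁻¹)]
  group

end Cfsg.Agent.Lib.SpCover.Mat
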