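/-
Vector-level core for the covering of `PSp₄(F)` by two conjugates of a semisimple class: every
isometry `g` of a symplectic 4-space, not `±1`, admits (up to sign) a Lagrangian pair adapted to
`g`: a symplectic basis `e₁, e₂, f₁, f₂` with `(g - 1) eᵢ ∈ ⟨f₁, f₂⟩`, unless `g` is the involution
`1 ⊕ -1`.
-/
import Mathlib

set_option autoImplicit false

namespace Cfsg.Agent.Lib.SpCover.Vec

variable {F V : Type*} [Field F] [AddCommGroup V] [Module F V]

/-- A symplectic 4-space. -/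
structure Sy (ω : V →ₗ[F] V →ₗ[F] F) : Prop where
  alt : ∀ v, ω v v = 0
  nd : ∀ v, v ≠ 0 → ∃ w, ω v w ≠ 0
  dim : Module.finrank F V = 4

/-- Gram standard quadruple. -/
structure Std (ω : V →ₗ[F] V →ₗ[F] F) (e₁ e₂ f₁ f₂ : V) : Prop where
  e₁e₂ : ω e₁ e₂ = 0
  f₁f₂ : ω f₁ f₂ = 0
  e₁f₁ : ω e₁ f₁ = 1
  e₂f₂ : ω e₂ f₂ = 1
  e₁f₂ : ω e₁ f₂ = 0
  e₂f₁ : ω e₂ f₁ = 0

/-- An isometry with its inverse. -/
structure Iso (ω : V →ₗ[F] V →ₗ[F] F) (g h : V →ₗ[F] V) : Prop where
  gh : ∀ v, g (h v) = v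
  hg : ∀ v, h (g v) = v
  pres : ∀ u v, ω (g u) (g v) = ω u v

/-- A symplectic basis adapted to `g`. -/
def Good (ω : V →ₗ[F] V →ₗ[F] F) (g : V →ₗ[F] V) : Prop :=
  ∃ (e₁ e₂ f₁ f₂ : V) (c₁₁ c₁₂ c₂₁ c₂₂ : F), Std ω e₁ e₂ f₁ f₂ ∧
    g e₁ = e₁ + c₁₁ • f₁ + c₂₁ • f₂ ∧ g e₂ = e₂ + c₁₂ • f₁ + c₂₂ • f₂

/-- `g` is the involution `1 ⊕ -1` in a symplectic basis. -/
def Tt (ω : V →ₗ[F] V →ₗ[F] F) (g : V →ₗ[F] V) : Prop :=
  ∃ e₁ e₂ f₁ f₂ : V, Std ω e₁ e₂ f₁ f₂ ∧ g e₁ = e₁ ∧ g e₂ = -e₂ ∧ g f₁ = f₁ ∧ g f₂ = -f₂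

variable {ω : V →ₗ[F] V →ₗ[F] F}

namespace Sy

variable (S : Sy ω)
include S

theorem skew (u v : V) : ω u v = - ω v u := by
  have h := S.alt (u + v)
  simp only [map_add, LinearMap.add_apply, S.alt] at h
  linear_combination h

/-- Some vector pairs to `1` with a nonzero vector. -/
theorem exists_pair {v : V} (hv : v ≠ 0) : ∃ w, ω v w = 1 := by
  obtain ⟨w, hw⟩ := S.nd v hv
  refine ⟨(ω v w)⁻¹ • w, ?_⟩
  simp only [map_smul, smul_eq_mul]
  field_simp

/-- Expansion in a Gram standard quadruple. -/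
theorem expand {e₁ e₂ f₁ f₂ : V} (hs : Std ω e₁ e₂ f₁ f₂) (v : V) :
    v = ω v f₁ • e₁ + ω v f₂ • e₂ - ω v e₁ • f₁ - ω v e₂ • f₂ := by
  have h21 : ω e₂ e₁ = 0 := by rw [S.skew, hs.e₁e₂, neg_zero]
  have hf21 : ω f₂ f₁ = 0 := by rw [S.skew, hs.f₁f₂, neg_zero]
  have hf1e1 : ω f₁ e₁ = -1 := by rw [S.skew, hs.e₁f₁]
  have hf2e2 : ω f₂ e₂ = -1 := by rw [S.skew, hs.e₂f₂]
  have hf2e1 : ω f₂ e₁ = 0 := by rw [S.skew, hs.e₁f₂, neg_zero]
  have hf1e2 : ω f₁ e₂ = 0 := by rw [S.skew, hs.e₂f₁, neg_zero]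
  have hli : LinearIndependent F ![e₁, e₂, f₁, f₂] := by
    rw [Fintype.linearIndependent_iff]
    intro c hc
    simp only [Fin.sum_univ_four, Matrix.cons_val_zero, Matrix.cons_val_one, Matrix.cons_val] at hc
    have h1 := congrArg (fun y => ω y f₁) hc
    have h2 := congrArg (fun y => ω y f₂) hc
    have h3 := congrArg (fun y => ω y e₁) hc
    have h4 := congrArg (fun y => ω y e₂) hc
    simp only [map_add, map_smul, LinearMap.add_apply, LinearMap.smul_apply, smul_eq_mul, map_zero,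
      LinearMap.zero_apply, S.alt, hs.e₁f₁, hs.e₂f₁, hs.e₁f₂, hs.e₂f₂, hf21, hs.f₁f₂, h21, hs.e₁e₂,
      hf1e1, hf2e1, hf1e2, hf2e2] at h1 h2 h3 h4
    intro i
    fin_cases i
    · simpa using h1
    · simpa using h2
    · simpa using h3
    · simpa using h4
  haveI : FiniteDimensional F V := Module.finite_of_finrank_pos (by rw [S.dim]; norm_num)
  have hspan := hli.span_eq_top_of_card_eq_finrank' (by simp [S.dim])
  have hv : v ∈ Submodule.span F (Set.range ![e₁, e₂, f₁, f₂]) := by rw [hspan]; trivial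
  obtain ⟨c, rfl⟩ := (Submodule.mem_span_range_iff_exists_fun F).1 hv
  simp only [Fin.sum_univ_four, Matrix.cons_val_zero, Matrix.cons_val_one, Matrix.cons_val, map_add,
    map_smul, LinearMap.add_apply, LinearMap.smul_apply, smul_eq_mul, S.alt, hs.e₁f₁, hs.e₂f₁,
    hs.e₁f₂, hs.e₂f₂, hf21, hs.f₁f₂, h21, hs.e₁e₂, hf1e1, hf2e1, hf1e2, hf2e2]
  module

/-- Completing a hyperbolic pair and an orthogonal vector. -/
theorem exists_std {x y x₂ : V} (hxy : ω x y = 1) (hx₂ : x₂ ≠ 0) (h1 : ω x₂ x = 0) (h2 : ω x₂ y = 0) :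
    ∃ y₂, Std ω x x₂ y y₂ ∧ ω y₂ x = 0 ∧ ω y₂ y = 0 := by
  obtain ⟨w, hw⟩ := S.exists_pair hx₂
  have hyx : ω y x = -1 := by rw [S.skew, hxy]
  refine ⟨w - ω w y • x + ω w x • y, ?_, ?_, ?_⟩
  · have ha : ω x (w - ω w y • x + ω w x • y) = 0 := by
      rw [S.skew]
      simp only [map_add, map_sub, map_smul, LinearMap.add_apply, LinearMap.sub_apply,
        LinearMap.smul_apply, smul_eq_mul, S.alt, hyx]
      ring
    have hb : ω y (w - ω w y • x + ω w x • y) = 0 := by
      rw [S.skew]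
      simp only [map_add, map_sub, map_smul, LinearMap.add_apply, LinearMap.sub_apply,
        LinearMap.smul_apply, smul_eq_mul, S.alt, hxy]
      ring
    refine ⟨by rw [S.skew, h1, neg_zero], hb, hxy, ?_, ha, h2⟩
    simp only [map_add, map_sub, map_smul, smul_eq_mul, h1, h2, hw]
    ring
  · simp only [map_add, map_sub, map_smul, LinearMap.add_apply, LinearMap.sub_apply,
      LinearMap.smul_apply, smul_eq_mul, S.alt, hyx]
    ring
  · simp only [map_add, map_sub, map_smul, LinearMap.add_apply, LinearMap.sub_apply,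
      LinearMap.smul_apply, smul_eq_mul, S.alt, hxy]
    ring

/-- A nonzero vector orthogonal to a hyperbolic pair. -/
theorem exists_perp {x y : V} (hxy : ω x y = 1) :
    ∃ x₂, x₂ ≠ 0 ∧ ω x₂ x = 0 ∧ ω x₂ y = 0 := by
  have hyx : ω y x = -1 := by rw [S.skew, hxy]
  have hne : Submodule.span F ({x, y} : Set V) ≠ ⊤ := by
    intro htop
    classical
    have h := finrank_span_finset_le_card (R := F) ({x, y} : Finset V)
    rw [Finset.coe_pair, Set.finrank, htop, finrank_top, S.dim] at h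
    have hc := Finset.card_le_two (a := x) (b := y)
    omega
  obtain ⟨v, hv⟩ := SetLike.exists_not_mem_of_ne_top _ hne rfl
  refine ⟨v - ω v y • x + ω v x • y, ?_, ?_, ?_⟩
  · intro h0
    apply hv
    have : v = ω v y • x - ω v x • y := by
      linear_combination (norm := module) h0
    rw [this]
    exact Submodule.sub_mem _ (Submodule.smul_mem _ _ (Submodule.subset_span (by simp)))
      (Submodule.smul_mem _ _ (Submodule.subset_span (by simp)))
  · simp only [map_add, map_sub, map_smul, LinearMap.add_apply, LinearMap.sub_apply,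
      LinearMap.smul_apply, smul_eq_mul, S.alt, hyx]
    ring
  · simp only [map_add, map_sub, map_smul, LinearMap.add_apply, LinearMap.sub_apply,
      LinearMap.smul_apply, smul_eq_mul, S.alt, hxy]
    ring

/-- A Lagrangian plane is its own orthogonal. -/
theorem mem_of_perp {x z w : V} (hx : x ≠ 0) (hxz : ω x z = 0) (hz : ∀ c : F, z ≠ c • x)
    (h1 : ω w x = 0) (h2 : ω w z = 0) : ∃ γ ε : F, w = γ • x + ε • z := by
  obtain ⟨y, hxy⟩ := S.exists_pair hx
  have hzx : ω z x = 0 := by rw [S.skew, hxz, neg_zero]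
  have hyx : ω y x = -1 := by rw [S.skew, hxy]
  have hx₂ : z - ω z y • x ≠ 0 := by
    intro h0
    exact hz (ω z y) (sub_eq_zero.1 h0)
  obtain ⟨y₂, hs, -, -⟩ := S.exists_std (x₂ := z - ω z y • x) hxy hx₂
    (by simp only [map_sub, map_smul, LinearMap.sub_apply, LinearMap.smul_apply, smul_eq_mul,
          hzx, S.alt]; ring)
    (by simp only [map_sub, map_smul, LinearMap.sub_apply, LinearMap.smul_apply, smul_eq_mul, hxy]
        ring)
  have hexp := S.expand hs w
  have hw2 : ω w (z - ω z y • x) = 0 := by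
    simp only [map_sub, map_smul, smul_eq_mul, h1, h2]; ring
  rw [h1, hw2, zero_smul, zero_smul, sub_zero, sub_zero] at hexp
  refine ⟨ω w y - ω w y₂ * ω z y, ω w y₂, ?_⟩
  conv_lhs => rw [hexp]
  module

end Sy

namespace Iso

variable {g h : V →ₗ[F] V} (I : Iso ω g h)
include I

theorem left_adj (u v : V) : ω (g u) v = ω u (h v) := by
  rw [← I.pres u (h v), I.gh]

theorem right_adj (u v : V) : ω u (g v) = ω (h u) v := by
  rw [← I.pres (h u) v, I.gh]

theorem neg : Iso ω (-g) (-h) where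
  gh v := by simp [I.gh]
  hg v := by simp [I.hg]
  pres u v := by simp [I.pres]

end Iso

section main

variable {g h : V →ₗ[F] V}

theorem good_aux (S : Sy ω) {e₁ e₂ y₁ y₂ : V} {C11 C12 C22 d : F} (h12 : ω e₁ e₂ = 0)
    (a11 : ω e₁ y₁ = C11) (a12 : ω e₁ y₂ = C12) (a21 : ω e₂ y₁ = C12) (a22 : ω e₂ y₂ = C22)
    (hy : ω y₁ y₂ = 0) (hd : d * (C11 * C22 - C12 * C12) = 1) :
    Std ω e₁ e₂ (d • (C22 • y₁ - C12 • y₂)) (d • (C11 • y₂ - C12 • y₁)) ∧
      y₁ = C11 • (d • (C22 • y₁ - C12 • y₂)) + C12 • (d • (C11 • y₂ - C12 • y₁)) ∧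
      y₂ = C12 • (d • (C22 • y₁ - C12 • y₂)) + C22 • (d • (C11 • y₂ - C12 • y₁)) := by
  have h21 : ω y₂ y₁ = 0 := by rw [S.skew, hy, neg_zero]
  refine ⟨⟨h12, ?_, ?_, ?_, ?_, ?_⟩, ?_, ?_⟩
  · simp only [map_sub, map_smul, LinearMap.sub_apply, LinearMap.smul_apply, smul_eq_mul, S.alt, hy,
      h21]
    ring
  · simp only [map_sub, map_smul, smul_eq_mul, a11, a12]
    linear_combination hd
  · simp only [map_sub, map_smul, smul_eq_mul, a21, a22]
    linear_combination hd
  · simp only [map_sub, map_smul, smul_eq_mul, a11, a12]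
    ring
  · simp only [map_sub, map_smul, smul_eq_mul, a21, a22]
    ring
  · linear_combination (norm := module) (- hd) • y₁
  · linear_combination (norm := module) (- hd) • y₂

/-- The Gram criterion: an isotropic pair with symmetric invertible `g`-Gram matrix. -/
theorem good_of_gram (S : Sy ω) (I : Iso ω g h) {e₁ e₂ : V} (h12 : ω e₁ e₂ = 0)
    (hsym : ω e₁ (g e₂) = ω e₂ (g e₁))
    (hdet : ω e₁ (g e₁) * ω e₂ (g e₂) - ω e₁ (g e₂) * ω e₂ (g e₁) ≠ 0) : Good ω g := by
  have h21 : ω e₂ e₁ = 0 := by rw [S.skew, h12, neg_zero]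
  have hy : ω (g e₁ - e₁) (g e₂ - e₂) = 0 := by
    simp only [map_sub, LinearMap.sub_apply, I.pres, h12]
    have h1 : ω (g e₁) e₂ = - ω e₂ (g e₁) := by rw [S.skew]
    rw [h1, hsym]
    ring
  rw [← hsym] at hdet
  have hd := inv_mul_cancel₀ hdet
  obtain ⟨hs, h1, h2⟩ := good_aux S (e₁ := e₁) (e₂ := e₂) (y₁ := g e₁ - e₁) (y₂ := g e₂ - e₂)
    (C11 := ω e₁ (g e₁)) (C12 := ω e₁ (g e₂)) (C22 := ω e₂ (g e₂)) h12 (by simp [S.alt])
    (by simp [h12]) (by simp [h21, hsym]) (by simp [S.alt]) hy hd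
  refine ⟨_, _, _, _, ω e₁ (g e₁), ω e₁ (g e₂), ω e₁ (g e₂), ω e₂ (g e₂), hs, ?_, ?_⟩
  · rw [add_assoc, ← h1]; abel
  · rw [add_assoc, ← h2]; abel

/-- The fixed vector case. -/
theorem good_of_fix (S : Sy ω) (I : Iso ω g h) {x x₂ y₂ : V} (ha : ω x (g x) ≠ 0) (hfix : g x₂ = x₂)
    (h1 : ω x₂ y₂ = 1) (h2 : ω x₂ x = 0) (h3 : ω x₂ (g x) = 0) (h4 : ω y₂ x = 0)
    (h5 : ω y₂ (g x) = 0) : Good ω g := by
  have h6 : ω x x₂ = 0 := by rw [S.skew, h2, neg_zero]
  have h7 : ω x y₂ = 0 := by rw [S.skew, h4, neg_zero]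
  have h8 : ω (g x) y₂ = 0 := by rw [S.skew, h5, neg_zero]
  refine ⟨x, x₂, (ω x (g x))⁻¹ • (g x - x), y₂, ω x (g x), 0, 0, 0, ⟨h6, ?_, ?_, h1, h7, ?_⟩, ?_, ?_⟩
  · simp only [map_sub, map_smul, LinearMap.sub_apply, LinearMap.smul_apply, smul_eq_mul, h7, h8]
    ring
  · simp only [map_sub, map_smul, smul_eq_mul, S.alt]
    field_simp
    ring
  · simp only [map_sub, map_smul, smul_eq_mul, h2, h3]
    ring
  · rw [zero_smul, add_zero, smul_smul, mul_inv_cancel₀ ha, one_smul]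
    abel
  · rw [zero_smul, zero_smul, add_zero, add_zero, hfix]

/-- Vectors in the orthogonal of an invariant hyperbolic plane. -/
theorem good_of_inv (S : Sy ω) (I : Iso ω g h) {x : V} {τ : F} (ha : ω x (g x) ≠ 0)
    (hT : g x + h x = τ • x) : Good ω g ∨ Good ω (-g) := by
  have hhx : h x = τ • x - g x := by rw [← hT]; abel
  have hperp : ∀ w, ω w x = 0 → ω w (g x) = 0 → ω (g w) x = 0 ∧ ω (g w) (g x) = 0 := by
    intro w h1 h2
    constructor
    · rw [I.left_adj, hhx]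
      simp only [map_sub, map_smul, smul_eq_mul, h1, h2]
      ring
    · rw [I.pres, h1]
  by_cases hex : ∃ w, ω w x = 0 ∧ ω w (g x) = 0 ∧ ω w (g w) ≠ 0
  · obtain ⟨w, h1, h2, h3⟩ := hex
    left
    have hgw := hperp w h1 h2
    refine good_of_gram S I (e₁ := x) (e₂ := w) (by rw [S.skew, h1, neg_zero]) ?_ ?_
    · rw [S.skew, hgw.1, h2, neg_zero]
    · rw [h2, S.skew x (g w), hgw.1]
      simpa using ⟨ha, h3⟩
  · push_neg at hex
    set y := (ω x (g x))⁻¹ • g x with hy
    have hxy : ω x y = 1 := by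
      simp only [hy, map_smul, smul_eq_mul]
      field_simp
    obtain ⟨x₂, hx₂, h1, h2⟩ := S.exists_perp hxy
    obtain ⟨y₂, hs, h3, h4⟩ := S.exists_std hxy hx₂ h1 h2
    have huy : ∀ w, ω w y = 0 → ω w (g x) = 0 := by
      intro w hw
      simp only [hy, map_smul, smul_eq_mul] at hw
      exact (mul_eq_zero.1 hw).resolve_left (inv_ne_zero ha)
    have hyu : ∀ w, ω w (g x) = 0 → ω w y = 0 := by
      intro w hw
      simp only [hy, map_smul, smul_eq_mul, hw, mul_zero]
    have hx2u := huy _ h2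
    have hy2u := huy _ h4
    have hg2 := hperp _ h1 hx2u
    have hgy2 := hperp _ h3 hy2u
    have e2 := hex _ h1 hx2u
    have ey2 := hex _ h3 hy2u
    have exp2 := S.expand hs (g x₂)
    have expy2 := S.expand hs (g y₂)
    rw [hg2.1, hyu _ hg2.2, S.skew _ x₂, e2, neg_zero] at exp2
    rw [hgy2.1, hyu _ hgy2.2, S.skew _ y₂, ey2, neg_zero] at expy2
    simp only [zero_smul, zero_add, sub_zero, zero_sub] at exp2 expy2
    set p := ω (g x₂) y₂ with hp
    set r := ω (g y₂) x₂ with hr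
    have hsum := hex (x₂ + y₂) (by simp [h1, h3]) (by simp [hx2u, hy2u])
    have hx2y2 : ω x₂ y₂ = 1 := hs.e₂f₂
    have hy2x2 : ω y₂ x₂ = -1 := by rw [S.skew, hx2y2]
    have hpr : p = - r := by
      rw [map_add g, exp2, expy2] at hsum
      simp only [map_add, map_neg, map_smul, LinearMap.add_apply, smul_eq_mul,
        S.alt, hx2y2, hy2x2] at hsum
      linear_combination (-1 : F) * hsum
    have hpp : p * p = 1 := by
      have := I.pres x₂ y₂
      rw [exp2, expy2] at this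
      simp only [map_neg, map_smul, LinearMap.smul_apply, smul_eq_mul, hx2y2] at this
      rw [hpr] at this ⊢
      linear_combination this
    have hp2 : (p - 1) * (p + 1) = 0 := by linear_combination hpp
    rcases mul_eq_zero.1 hp2 with hp1 | hp1
    · left
      have hp1' : p = 1 := sub_eq_zero.1 hp1
      refine good_of_fix S I ha (x₂ := x₂) (y₂ := y₂) ?_ hx2y2 h1 hx2u h3 hy2u
      rw [exp2, hp1', one_smul]
    · right
      have hp1' : p = -1 := eq_neg_of_add_eq_zero_left hp1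
      refine good_of_fix S I.neg (x := x) (x₂ := x₂) (y₂ := y₂) ?_ ?_ hx2y2 h1 ?_ h3 ?_
      · simpa using ha
      · simp only [LinearMap.neg_apply]
        rw [exp2, hp1']
        simp
      · simp [hx2u]
      · simp [hy2u]

/-- The case where `x ↦ ω x (g x)` vanishes identically. -/
theorem good_of_self (S : Sy ω) (I : Iso ω g h) (h0 : ∀ x, ω x (g x) = 0)
    (h1 : ∃ v, g v ≠ v) (h2 : ∃ v, g v ≠ -v) : Good ω g ∨ ((2 : F) ≠ 0 ∧ Tt ω g) := by
  have hpol : ∀ u v, ω u (g v) = - ω v (g u) := by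
    intro u v
    have := h0 (u + v)
    simp only [map_add, LinearMap.add_apply, h0] at this
    linear_combination this
  have hself : ∀ u v, ω (g u) v = ω u (g v) := by
    intro u v
    rw [S.skew, hpol v u]
    ring
  have hgg : ∀ v, g (g v) = v := by
    intro v
    by_contra hne
    obtain ⟨w, hw⟩ := S.nd (g (g v) - v) (sub_ne_zero.2 hne)
    apply hw
    simp only [map_sub, LinearMap.sub_apply]
    rw [hself, I.pres]
    ring
  by_cases h20 : (2 : F) = 0
  · left
    obtain ⟨y₂, hy₂⟩ := h1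
    obtain ⟨y₀, hy₀⟩ := S.exists_pair (sub_ne_zero.2 hy₂)
    set κ := ω y₀ y₂ with hκ
    have hy₀' : ω y₀ (g y₂ - y₂) = -1 := by
      rw [S.skew, hy₀]
    have hval : ω y₀ (g y₂) = κ - 1 := by
      simp only [map_sub] at hy₀'
      linear_combination hy₀'
    have hv : ω y₀ (g (y₂ + κ • (g y₂ - y₂))) = -1 := by
      simp only [map_add, map_sub, map_smul, smul_eq_mul, hgg, hval, ← hκ]
      linear_combination κ * h20
    have hf : ω (y₂ + κ • (g y₂ - y₂)) (g y₀) = 1 := by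
      rw [hpol, hv, neg_neg]
    refine good_of_gram S I (e₁ := y₀) (e₂ := y₂ + κ • (g y₂ - y₂)) ?_ ?_ ?_
    · simp only [map_add, map_sub, map_smul, smul_eq_mul, hval, ← hκ]
      ring
    · rw [hf, hv]
      linear_combination - h20
    · rw [h0, h0, zero_mul, hf, hv]
      simp
  · right
    refine ⟨h20, ?_⟩
    obtain ⟨w₁, hw₁⟩ := h2
    obtain ⟨w₂, hw₂⟩ := h1
    have hxp : g w₁ + w₁ ≠ 0 := fun h => hw₁ (eq_neg_of_add_eq_zero_left h)
    have hxm : g w₂ - w₂ ≠ 0 := sub_ne_zero.2 hw₂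
    have hgxp : g (g w₁ + w₁) = g w₁ + w₁ := by rw [map_add, hgg, add_comm]
    have hgxm : g (g w₂ - w₂) = - (g w₂ - w₂) := by rw [map_sub, hgg]; abel
    generalize g w₁ + w₁ = xp at hxp hgxp
    generalize g w₂ - w₂ = xm at hxm hgxm
    obtain ⟨y₁, hy₁⟩ := S.exists_pair hxp
    obtain ⟨y₂, hy₂⟩ := S.exists_pair hxm
    have horth : ∀ p q, g p = p → g q = -q → ω p q = 0 := by
      intro p q hp hq
      have := I.pres p q
      rw [hp, hq, map_neg] at this
      have h3 : (2 : F) * ω p q = 0 := by linear_combination - this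
      exact (mul_eq_zero.1 h3).resolve_left h20
    have hgyb : g ((2 : F)⁻¹ • (y₁ + g y₁)) = (2 : F)⁻¹ • (y₁ + g y₁) := by
      rw [map_smul, map_add, hgg, add_comm]
    have hgyh : g ((2 : F)⁻¹ • (y₂ - g y₂)) = - ((2 : F)⁻¹ • (y₂ - g y₂)) := by
      rw [map_smul, map_sub, hgg, ← smul_neg, neg_sub]
    have a1 : ω xp (g y₁) = 1 := by
      have := I.pres xp y₁
      rw [hgxp, hy₁] at this
      exact this
    have a2 : ω xm (g y₂) = -1 := by
      have := I.pres xm y₂
      rw [hgxm, hy₂, map_neg, LinearMap.neg_apply] at this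
      linear_combination - this
    refine ⟨xp, xm, (2 : F)⁻¹ • (y₁ + g y₁), (2 : F)⁻¹ • (y₂ - g y₂),
      ⟨horth _ _ hgxp hgxm, horth _ _ hgyb hgyh, ?_, ?_, horth _ _ hgxp hgyh, ?_⟩, hgxp, hgxm, hgyb, hgyh⟩
    · simp only [map_add, map_smul, smul_eq_mul, hy₁, a1]
      field_simp
      norm_num
    · simp only [map_sub, map_smul, smul_eq_mul, hy₂, a2]
      field_simp
      norm_num
    · rw [S.skew, horth _ _ hgyb hgxm, neg_zero]

/-- The main case. -/
theorem good_of_main (S : Sy ω) (I : Iso ω g h) {x : V} (ha : ω x (g x) ≠ 0)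
    (hT : ∀ c : F, g x + h x ≠ c • x) : Good ω g ∨ Good ω (-g) := by
  have hxhx : ω x (h x) = - ω x (g x) := by
    rw [← I.left_adj, S.skew]
  have hxT : ω x (g x + h x) = 0 := by
    rw [map_add, hxhx]; ring
  have hgT : g (g x + h x) = g (g x) + x := by rw [map_add, I.gh]
  have hsym : ω x (g (g x + h x)) = ω (g x + h x) (g x) := by
    rw [hgT, map_add, S.alt, add_zero, map_add, LinearMap.add_apply, S.alt, zero_add,
      ← I.pres (h x) (g x), I.gh]
  set a := ω x (g x) with ha_def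
  set b := ω x (g (g x + h x)) with hb_def
  set d := ω (g x + h x) (g (g x + h x)) with hd_def
  by_cases hdet : a * d - b * b = 0
  swap
  · left
    refine good_of_gram S I hxT ?_ ?_
    · exact hsym
    · rw [← hsym]
      exact hdet
  set y₀ := g x + h x with hy₀
  set τ' := b / a with hτ'
  set z := y₀ - τ' • x with hz
  have hbτ : b = τ' * a := by rw [hτ']; field_simp
  have hdτ : d = τ' * b := by
    rw [hτ']
    field_simp
    linear_combination hdet
  have hxz : ω x z = 0 := by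
    simp only [hz, map_sub, map_smul, smul_eq_mul, hxT, S.alt]
    ring
  have hzx : ω z x = 0 := by rw [S.skew, hxz, neg_zero]
  have hx0 : x ≠ 0 := by
    rintro rfl
    exact ha (by simp [ha_def])
  have hznc : ∀ c : F, z ≠ c • x := by
    intro c hc
    apply hT (c + τ')
    have : y₀ = z + τ' • x := by rw [hz]; abel
    rw [add_smul, ← hc, ← this]
  have hz0 : z ≠ 0 := by
    intro h0
    apply hznc 0
    rw [h0, zero_smul]
  have hzgx : ω z (g x) = 0 := by
    simp only [hz, map_sub, map_smul, LinearMap.sub_apply, LinearMap.smul_apply, smul_eq_mul]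
    rw [← hsym]
    linear_combination hbτ
  have hgz : ω x (g z) = 0 := by
    simp only [hz, map_sub, map_smul, smul_eq_mul]
    linear_combination hbτ
  have hgzz : ω z (g z) = 0 := by
    simp only [hz, map_sub, map_smul, LinearMap.sub_apply, LinearMap.smul_apply, smul_eq_mul]
    rw [← ha_def, ← hsym]
    linear_combination hdτ - τ' * hbτ
  have hg1 : ω (g z) x = 0 := by rw [S.skew, hgz, neg_zero]
  have hg2 : ω (g z) z = 0 := by rw [S.skew, hgzz, neg_zero]
  obtain ⟨γ, ε, hge⟩ := S.mem_of_perp hx0 hxz hznc hg1 hg2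
  have hγ : γ = 0 := by
    have := I.pres z x
    rw [hzx, hge] at this
    simp only [map_add, map_smul, LinearMap.add_apply, LinearMap.smul_apply, smul_eq_mul, hzgx,
      mul_zero, add_zero, ← ha_def] at this
    exact (mul_eq_zero.1 this).resolve_right ha
  rw [hγ, zero_smul, zero_add] at hge
  have hε : ε ≠ 0 := by
    rintro rfl
    rw [zero_smul] at hge
    apply hz0
    rw [← I.hg z, hge, map_zero]
  have hhz : h z = ε⁻¹ • z := by
    have : h (g z) = z := I.hg z
    rw [hge, map_smul] at this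
    calc h z = ε⁻¹ • (ε • h z) := by rw [smul_smul, inv_mul_cancel₀ hε, one_smul]
      _ = ε⁻¹ • z := by rw [this]
  have hTx : g x + h x = z + τ' • x := by rw [← hy₀, hz]; abel
  have hhx : h x = z + τ' • x - g x := by rw [← hTx]; abel
  by_cases hττ : τ' = ε + ε⁻¹
  · left
    have hguu : g (g x) = ε • z + τ' • g x - x := by
      have : g (g x + h x) = g (z + τ' • x) := by rw [hTx]
      rw [map_add, I.gh, map_add, map_smul, hge] at this
      rw [eq_sub_iff_add_eq, this]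
    have hhu : h (g x) = x := I.hg x
    obtain ⟨v₀, hv₀⟩ := S.exists_pair hz0
    set v := v₀ + (ω (g x) v₀ / a) • x - (ω x v₀ / a) • g x with hv
    have hux : ω (g x) x = - a := by rw [S.skew]
    have hzu : ω z (g x) = 0 := hzgx
    have vz : ω z v = 1 := by
      simp only [hv, map_add, map_sub, map_smul, smul_eq_mul, hzx, hzu, hv₀]
      ring
    have vx : ω x v = 0 := by
      simp only [hv, map_add, map_sub, map_smul, smul_eq_mul, S.alt, ← ha_def]
      field_simp
      ring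
    have vu : ω (g x) v = 0 := by
      simp only [hv, map_add, map_sub, map_smul, smul_eq_mul, S.alt, hux]
      field_simp
      ring
    have vz' : ω v z = -1 := by rw [S.skew, vz]
    have vx' : ω v x = 0 := by rw [S.skew, vx, neg_zero]
    have vu' : ω v (g x) = 0 := by rw [S.skew, vu, neg_zero]
    have hgw : g (g x - ε • x) = ε • z + ε⁻¹ • g x - x := by
      rw [map_sub, map_smul, hguu, hττ]
      have : ε • (ε⁻¹ • g x) = g x := by rw [smul_smul, mul_inv_cancel₀ hε, one_smul]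
      module
    have hhw : h (g x - ε • x) = x - ε • z - (ε * τ') • x + ε • g x := by
      rw [map_sub, map_smul, hhu, hhx]
      module
    have huz : ω (g x) z = 0 := by rw [S.skew, hzgx, neg_zero]
    refine good_of_gram S I (e₁ := v) (e₂ := g x - ε • x) ?_ ?_ ?_
    · simp only [map_sub, map_smul, smul_eq_mul, vu', vx']
      ring
    · rw [hgw, I.right_adj (g x - ε • x) v, hhw]
      simp only [map_add, map_sub, map_smul, LinearMap.add_apply, LinearMap.sub_apply,
        LinearMap.smul_apply, smul_eq_mul, vz', vz, vx, vx', vu, vu']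
      ring
    · rw [hgw, I.right_adj (g x - ε • x) v, hhw]
      have : ω (g x - ε • x) (ε • z + ε⁻¹ • g x - x) = 0 := by
        simp only [map_add, map_sub, map_smul, LinearMap.add_apply, LinearMap.sub_apply,
          LinearMap.smul_apply, smul_eq_mul, S.alt, huz, hux, hxz, ← ha_def]
        field_simp
        ring
      rw [this]
      simp only [map_add, map_sub, map_smul, LinearMap.add_apply, LinearMap.sub_apply,
        LinearMap.smul_apply, smul_eq_mul, vz', vz, vx, vx', vu, vu']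
      simp
      exact hε
  · have hne : τ' - (ε + ε⁻¹) ≠ 0 := sub_ne_zero.2 hττ
    set κ := (τ' - (ε + ε⁻¹))⁻¹ with hκ
    have hκ1 : κ * (τ' - (ε + ε⁻¹)) = 1 := inv_mul_cancel₀ hne
    refine good_of_inv S I (x := x + κ • z) (τ := τ') ?_ ?_
    · have : ω (x + κ • z) (g (x + κ • z)) = a := by
        simp only [map_add, map_smul, hge, LinearMap.add_apply, LinearMap.smul_apply, smul_eq_mul,
          S.alt, hxz, hzgx, ← ha_def]
        ring
      rw [this]
      exact ha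
    · simp only [map_add, map_smul, hge, hhz, LinearMap.add_apply]
      rw [hhx]
      linear_combination (norm := module) (- hκ1) • z

/-- The main dichotomy for isometries of a symplectic 4-space. -/
theorem good_or_tt (S : Sy ω) (I : Iso ω g h) (h1 : ∃ v, g v ≠ v) (h2 : ∃ v, g v ≠ -v) :
    Good ω g ∨ Good ω (-g) ∨ ((2 : F) ≠ 0 ∧ Tt ω g) := by
  by_cases h0 : ∀ x, ω x (g x) = 0
  · rcases good_of_self S I h0 h1 h2 with h | h
    · exact Or.inl h
    · exact Or.inr (Or.inr h)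
  · push_neg at h0
    obtain ⟨x, hx⟩ := h0
    by_cases hT : ∃ c : F, g x + h x = c • x
    · obtain ⟨c, hc⟩ := hT
      rcases good_of_inv S I hx hc with h | h
      · exact Or.inl h
      · exact Or.inr (Or.inl h)
    · push_neg at hT
      rcases good_of_main S I hx hT with h | h
      · exact Or.inl h
      · exact Or.inr (Or.inl h)

/-- The involution `1 ⊕ -1` in a cell with Levi part `[[0, -1], [1, 0]]`. -/
theorem tt_cell (S : Sy ω) (I : Iso ω g h) (h2 : (2 : F) ≠ 0) (ht : Tt ω g) :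
    ∃ E₁ E₂ F₁ F₂ : V, Std ω E₁ E₂ F₁ F₂ ∧
      g E₁ = (0 : F) • E₁ + (1 : F) • E₂ + (0 : F) • F₁ + (-2 : F) • F₂ ∧
      g E₂ = (-1 : F) • E₁ + (0 : F) • E₂ + (2 : F) • F₁ + (0 : F) • F₂ := by
  obtain ⟨e₁, e₂, f₁, f₂, hs, h1, h3, h4, h5⟩ := ht
  have e21 : ω e₂ e₁ = 0 := by rw [S.skew, hs.e₁e₂, neg_zero]
  have f21 : ω f₂ f₁ = 0 := by rw [S.skew, hs.f₁f₂, neg_zero]
  have f1e1 : ω f₁ e₁ = -1 := by rw [S.skew, hs.e₁f₁]
  have f2e2 : ω f₂ e₂ = -1 := by rw [S.skew, hs.e₂f₂]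
  have f2e1 : ω f₂ e₁ = 0 := by rw [S.skew, hs.e₁f₂, neg_zero]
  have f1e2 : ω f₁ e₂ = 0 := by rw [S.skew, hs.e₂f₁, neg_zero]
  refine ⟨e₁ + e₂, f₁ - f₂, (2 : F)⁻¹ • (f₁ + f₂ + e₁ + e₂), (2 : F)⁻¹ • (f₁ - f₂ - e₁ + e₂),
    ⟨?_, ?_, ?_, ?_, ?_, ?_⟩, ?_, ?_⟩
  all_goals
    try simp only [map_add, map_sub, map_smul, LinearMap.add_apply, LinearMap.sub_apply,
      LinearMap.smul_apply, smul_eq_mul, S.alt, hs.e₁e₂, hs.f₁f₂, hs.e₁f₁, hs.e₂f₂, hs.e₁f₂, hs.e₂f₁,
      e21, f21, f1e1, f2e2, f2e1, f1e2, h1, h3, h4, h5]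
  · ring
  · ring
  · field_simp
    ring
  · field_simp
    ring
  · ring
  · ring
  · have hi : (2 : F) * (2 : F)⁻¹ = 1 := mul_inv_cancel₀ h2
    generalize (2 : F)⁻¹ = i at hi ⊢
    linear_combination (norm := module) hi • (f₁ - f₂ - e₁ + e₂)
  · have hi : (2 : F) * (2 : F)⁻¹ = 1 := mul_inv_cancel₀ h2
    generalize (2 : F)⁻¹ = i at hi ⊢
    linear_combination (norm := module) (-hi) • (f₁ + f₂ + e₁ + e₂)

end main

end Cfsg.Agent.Lib.SpCover.Vec
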