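/-
From symplectic bases adapted to `g` to the big-cell form of `g` in `Matrix.symplecticGroup`.
-/
import Mathlib
import Cfsg.Agent.Lib.SpCover.Vec
import Cfsg.Agent.Lib.SpCover.Mat
import Cfsg.Agent.Lib.Classical.SympForm

set_option autoImplicit false

namespace Cfsg.Agent.Lib.SpCover.Bridge

open Matrix Cfsg
open scoped MatrixGroups
open Cfsg.Agent.Lib.Classical.SympForm
open Cfsg.Agent.Lib.SpCover.Vec Cfsg.Agent.Lib.SpCover.Mat

variable {F : Type*} [Field F]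

/-- The column space. -/
abbrev VV (F : Type*) := Fin 2 ⊕ Fin 2 → F

variable (F) in
/-- The form with `ω eᵢ fᵢ = 1`. -/
noncomputable def om : VV F →ₗ[F] VV F →ₗ[F] F := -(sympBilin 2 F)

theorem om_apply (u v : VV F) : om F u v = - sympForm 2 F u v := rfl

variable (F) in
theorem sy : Sy (om F) where
  alt v := by
    have := sympBilin_isAlt (m := 2) (F := F) v
    rw [om_apply, ← sympBilin_apply, this, neg_zero]
  nd v hv := by
    by_contra hc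
    push_neg at hc
    apply hv
    ext (i | i)
    · have := hc (Pi.single (Sum.inr i) 1)
      rw [om_apply, sympForm_single_inr] at this
      simpa using this
    · have := hc (Pi.single (Sum.inl i) 1)
      rw [om_apply, sympForm_single_inl] at this
      simpa using this
  dim := by simp

/-- A symplectic matrix as an isometry. -/
theorem iso (A : symplecticGroup (Fin 2) F) :
    Iso (om F) (mulVecLin A.1) (mulVecLin (A⁻¹).1) where
  gh v := by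
    simp only [mulVecLin_apply, Matrix.mulVec_mulVec]
    rw [← Submonoid.coe_mul, mul_inv_cancel]
    simp
  hg v := by
    simp only [mulVecLin_apply, Matrix.mulVec_mulVec]
    rw [← Submonoid.coe_mul, inv_mul_cancel]
    simp
  pres u v := by
    simp only [mulVecLin_apply, om_apply]
    rw [(mem_symplecticGroup_iff _).1 A.2 u v]

/-- The matrix with prescribed columns. -/
def colM (e₁ e₂ f₁ f₂ : VV F) : Matrix (Fin 2 ⊕ Fin 2) (Fin 2 ⊕ Fin 2) F :=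
  Matrix.of fun i j => Sum.elim (fun k : Fin 2 => ![e₁ i, e₂ i] k) (fun k : Fin 2 => ![f₁ i, f₂ i] k) j

theorem colM_mulVec (e₁ e₂ f₁ f₂ u : VV F) :
    colM e₁ e₂ f₁ f₂ *ᵥ u = u (Sum.inl 0) • e₁ + u (Sum.inl 1) • e₂ + u (Sum.inr 0) • f₁
      + u (Sum.inr 1) • f₂ := by
  ext i
  simp only [colM, mulVec, dotProduct, Fintype.sum_sum_type, Fin.sum_univ_two, of_apply, Sum.elim_inl,
    Sum.elim_inr, Pi.add_apply, Pi.smul_apply, smul_eq_mul, Matrix.cons_val_zero, Matrix.cons_val_one,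
    Matrix.cons_val_fin_one]
  ring

theorem colM_mem {e₁ e₂ f₁ f₂ : VV F} (hs : Std (om F) e₁ e₂ f₁ f₂) :
    colM e₁ e₂ f₁ f₂ ∈ symplecticGroup (Fin 2) F := by
  rw [mem_symplecticGroup_iff]
  intro u v
  have S := sy F
  have e21 : om F e₂ e₁ = 0 := by rw [S.skew, hs.e₁e₂, neg_zero]
  have f21 : om F f₂ f₁ = 0 := by rw [S.skew, hs.f₁f₂, neg_zero]
  have f1e1 : om F f₁ e₁ = -1 := by rw [S.skew, hs.e₁f₁]
  have f2e2 : om F f₂ e₂ = -1 := by rw [S.skew, hs.e₂f₂]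
  have f2e1 : om F f₂ e₁ = 0 := by rw [S.skew, hs.e₁f₂, neg_zero]
  have f1e2 : om F f₁ e₂ = 0 := by rw [S.skew, hs.e₂f₁, neg_zero]
  have key : om F (colM e₁ e₂ f₁ f₂ *ᵥ u) (colM e₁ e₂ f₁ f₂ *ᵥ v) = om F u v := by
    rw [colM_mulVec, colM_mulVec, om_apply u v, sympForm_eq_sum, Fin.sum_univ_two]
    simp only [map_add, map_smul, LinearMap.add_apply, LinearMap.smul_apply, smul_eq_mul, S.alt,
      hs.e₁e₂, hs.f₁f₂, hs.e₁f₁, hs.e₂f₂, hs.e₁f₂, hs.e₂f₁, e21, f21, f1e1, f2e2, f2e1, f1e2]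
    ring
  rw [om_apply, om_apply] at key
  exact neg_injective key

theorem coeff_eq {e₁ e₂ f₁ f₂ : VV F} (hs : Std (om F) e₁ e₂ f₁ f₂) {a₁ a₂ b₁ b₂ a₁' a₂' b₁' b₂' : F}
    (h : a₁ • e₁ + a₂ • e₂ + b₁ • f₁ + b₂ • f₂ = a₁' • e₁ + a₂' • e₂ + b₁' • f₁ + b₂' • f₂) :
    a₁ = a₁' ∧ a₂ = a₂' := by
  have S := sy F
  have f21 : om F f₂ f₁ = 0 := by rw [S.skew, hs.f₁f₂, neg_zero]
  have h1 := congrArg (fun y => om F y f₁) h
  have h2 := congrArg (fun y => om F y f₂) h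
  simp only [map_add, map_smul, LinearMap.add_apply, LinearMap.smul_apply, smul_eq_mul, S.alt,
    hs.e₁f₁, hs.e₂f₁, hs.e₁f₂, hs.e₂f₂, hs.f₁f₂, f21] at h1 h2
  constructor
  · simpa using h1
  · simpa using h2

/-- From an adapted symplectic basis to the big cell. -/
theorem cell_of_std (g : symplecticGroup (Fin 2) F) (A : GL (Fin 2) F) {e₁ e₂ f₁ f₂ : VV F}
    (hs : Std (om F) e₁ e₂ f₁ f₂) {c₁₁ c₁₂ c₂₁ c₂₂ : F}
    (h1 : g.1 *ᵥ e₁ = A.1 0 0 • e₁ + A.1 1 0 • e₂ + c₁₁ • f₁ + c₂₁ • f₂)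
    (h2 : g.1 *ᵥ e₂ = A.1 0 1 • e₁ + A.1 1 1 • e₂ + c₁₂ • f₁ + c₂₂ • f₂) :
    ∃ (P : symplecticGroup (Fin 2) F) (C B : Matrix (Fin 2) (Fin 2) F) (hC : Cᵀ = C) (hB : Bᵀ = B),
      g = P * (lS C hC * mS A * uS B hB) * P⁻¹ := by
  set P : symplecticGroup (Fin 2) F := ⟨colM e₁ e₂ f₁ f₂, colM_mem hs⟩ with hP
  set G := P⁻¹ * g * P with hG
  have hPG : P.1 * G.1 = g.1 * P.1 := by
    rw [← Submonoid.coe_mul, ← Submonoid.coe_mul, hG]
    group
  have hcol : ∀ j : Fin 2, g.1 *ᵥ (P.1 *ᵥ Pi.single (Sum.inl j) 1) =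
      P.1 *ᵥ (G.1 *ᵥ Pi.single (Sum.inl j) 1) := by
    intro j
    rw [mulVec_mulVec, mulVec_mulVec, hPG]
  have hP0 : P.1 *ᵥ Pi.single (Sum.inl 0) 1 = e₁ := by
    rw [hP]
    show colM e₁ e₂ f₁ f₂ *ᵥ _ = _
    rw [colM_mulVec]
    simp
  have hP1 : P.1 *ᵥ Pi.single (Sum.inl 1) 1 = e₂ := by
    rw [hP]
    show colM e₁ e₂ f₁ f₂ *ᵥ _ = _
    rw [colM_mulVec]
    simp
  have hb : G.1.toBlocks₁₁ = A.1 := by
    have h0' := hcol 0
    have h1' := hcol 1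
    rw [hP0, h1] at h0'
    rw [hP1, h2] at h1'
    have hPc : ∀ w : VV F, P.1 *ᵥ w = colM e₁ e₂ f₁ f₂ *ᵥ w := fun w => rfl
    rw [hPc, colM_mulVec] at h0' h1'
    obtain ⟨a0, a1⟩ := coeff_eq hs h0'
    obtain ⟨b0, b1⟩ := coeff_eq hs h1'
    simp only [mulVec_single_one, col_apply] at a0 a1 b0 b1
    ext i j
    fin_cases i <;> fin_cases j
    · exact a0.symm
    · exact b0.symm
    · exact a1.symm
    · exact b1.symm
  obtain ⟨C, B, hC, hB, hGe⟩ := big_cell G A hb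
  refine ⟨P, C, B, hC, hB, ?_⟩
  rw [← hGe, hG]
  group

end Cfsg.Agent.Lib.SpCover.Bridge
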