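/-
The parameters `(τ, δ)` of the semisimple class, and the order of the companion element.
-/
import Mathlib
import Cfsg.Agent.Lib.SpCover.Mat

set_option autoImplicit false

namespace Cfsg.Agent.Lib.SpCover.Param

open Matrix Polynomial
open scoped MatrixGroups
open Cfsg.Agent.Lib.SpCover.Mat

variable {F : Type*} [Field F]

/-- A matrix with nonzero determinant, as an element of `GL₂`. -/
theorem exists_conj_of_mul {M X : GL (Fin 2) F} {P : Matrix (Fin 2) (Fin 2) F} (hP : P.det ≠ 0)
    (h : M.1 * P = P * X.1) : ∃ P' : GL (Fin 2) F, P' * X * P'⁻¹ = M := by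
  let P' := GeneralLinearGroup.mkOfDetNeZero P hP
  have hP' : P'.1 = P := rfl
  refine ⟨P', ?_⟩
  have : P' * X = M * P' := by
    apply Units.ext
    simp only [Units.val_mul, hP', h]
  rw [this, mul_assoc, mul_inv_cancel, mul_one]

/-- A nonscalar matrix is conjugate to the companion matrix of its characteristic polynomial. -/
theorem conj_comp (M : GL (Fin 2) F) {τ δ : F} (hδ : δ ≠ 0) (ht : M.1 0 0 + M.1 1 1 = τ)
    (hd : M.1 0 0 * M.1 1 1 - M.1 0 1 * M.1 1 0 = δ)
    (hn : M.1 1 0 ≠ 0 ∨ M.1 0 1 ≠ 0 ∨ M.1 0 0 ≠ M.1 1 1) :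
    ∃ P : GL (Fin 2) F, P * compGL τ δ hδ * P⁻¹ = M := by
  set p := M.1 0 0
  set q := M.1 0 1
  set r := M.1 1 0
  set s := M.1 1 1
  have hM : M.1 = !![p, q; r, s] := Matrix.eta_fin_two _
  have hX : (compGL τ δ hδ).1 = !![0, -δ; 1, τ] := rfl
  by_cases hr : r = 0
  swap
  · refine exists_conj_of_mul (P := !![1, p; 0, r]) (by simpa [Matrix.det_fin_two_of] using hr) ?_
    rw [hM, hX]
    subst ht hd
    ext i j
    fin_cases i <;> fin_cases j <;> simp [Matrix.mul_apply, Fin.sum_univ_two] <;> ring
  by_cases hq : q = 0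
  swap
  · refine exists_conj_of_mul (P := !![0, q; 1, s]) (by simpa [Matrix.det_fin_two_of] using hq) ?_
    rw [hM, hX]
    subst ht hd
    ext i j
    fin_cases i <;> fin_cases j <;> simp [Matrix.mul_apply, Fin.sum_univ_two] <;> ring
  have hps : p ≠ s := by
    rcases hn with hn | hn | hn
    · exact absurd hr hn
    · exact absurd hq hn
    · exact hn
  refine exists_conj_of_mul (P := !![1, p; 1, s]) ?_ ?_
  · rw [Matrix.det_fin_two_of]
    intro h0
    exact hps (by linear_combination (-1 : F) * h0)
  · rw [hM, hX]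
    subst ht hd
    ext i j
    fin_cases i <;> fin_cases j <;> simp [Matrix.mul_apply, Fin.sum_univ_two, hr, hq] <;> ring

/-- The factorization criterion for the Levi part. -/
theorem factor_of {τ δ : F} (hδ : δ ≠ 0) (a' b' : GL (Fin 2) F)
    (h1 : a'.1 0 0 + a'.1 1 1 = τ) (h2 : a'.1 0 0 * a'.1 1 1 - a'.1 0 1 * a'.1 1 0 = δ)
    (h3 : a'.1 1 0 ≠ 0 ∨ a'.1 0 1 ≠ 0 ∨ a'.1 0 0 ≠ a'.1 1 1)
    (h4 : b'.1 0 0 + b'.1 1 1 = τ * δ⁻¹) (h5 : b'.1 0 0 * b'.1 1 1 - b'.1 0 1 * b'.1 1 0 = δ⁻¹)
    (h6 : b'.1 1 0 ≠ 0 ∨ b'.1 0 1 ≠ 0 ∨ b'.1 0 0 ≠ b'.1 1 1) :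
    ∃ P Q : GL (Fin 2) F, P * compGL τ δ hδ * P⁻¹ * (Q * (compGL τ δ hδ)⁻¹ * Q⁻¹) = a' * b' := by
  obtain ⟨P, hP⟩ := conj_comp a' hδ h1 h2 h3
  have hδ' : δ⁻¹ ≠ 0 := inv_ne_zero hδ
  obtain ⟨Q₁, hQ₁⟩ := conj_comp b' hδ' h4 h5 h6
  have hv : ((compGL τ δ hδ)⁻¹ : GL (Fin 2) F).1 = !![τ * δ⁻¹, 1; -δ⁻¹, 0] := rfl
  obtain ⟨Q₂, hQ₂⟩ := conj_comp (τ := τ * δ⁻¹) (compGL τ δ hδ)⁻¹ hδ'
    (by rw [hv]; simp) (by rw [hv]; simp) (Or.inr (Or.inl (by rw [hv]; simp)))
  refine ⟨P, Q₁ * Q₂⁻¹, ?_⟩
  rw [hP, ← hQ₁]
  congr 1
  rw [← hQ₂]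
  group

/-- The element `[[0, -1], [1, 0]]` of `GL₂`. -/
def jGL (F : Type*) [Field F] : GL (Fin 2) F where
  val := !![0, -1; 1, 0]
  inv := !![0, 1; -1, 0]
  val_inv := by
    ext i j
    fin_cases i <;> fin_cases j <;> simp [Matrix.mul_apply, Fin.sum_univ_two]
  inv_val := by
    ext i j
    fin_cases i <;> fin_cases j <;> simp [Matrix.mul_apply, Fin.sum_univ_two]

/-- The even case, and more generally a quadratic without roots and with constant term `≠ 1`. -/
theorem exists_noroot [Fintype F] (h3 : 3 ≤ Fintype.card F) :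
    ∃ τ δ : F, (∀ r : F, r ^ 2 - τ * r + δ ≠ 0) ∧ δ ≠ 1 := by
  have hninj : ¬ Function.Injective (fun r : F => r ^ 2 - r) := by
    intro hinj
    have := @hinj 0 1 (by simp)
    exact zero_ne_one this
  have hnsurj : ¬ Function.Surjective (fun r : F => r ^ 2 - r) := by
    intro hs
    exact hninj (Finite.injective_iff_surjective.2 hs)
  simp only [Function.Surjective, not_forall, not_exists] at hnsurj
  obtain ⟨d, hd⟩ := hnsurj
  by_cases hd1 : -d = 1
  · obtain ⟨c, hc0, hc1⟩ : ∃ c : F, c ≠ 0 ∧ c ≠ -1 := by
      classical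
      by_contra hcon
      push_neg at hcon
      have hsub : (Finset.univ : Finset F) ⊆ {0, -1} := by
        intro c _
        by_cases hc : c = 0
        · simp [hc]
        · simp [hcon c hc]
      have := Finset.card_le_card hsub
      have h2 := Finset.card_le_two (a := (0 : F)) (b := -1)
      rw [Finset.card_univ] at this
      omega
    refine ⟨2 * c + 1, c ^ 2 + c + 1, ?_, ?_⟩
    · intro r h0
      apply hd (r - c)
      show (r - c) ^ 2 - (r - c) = d
      have hd' : d = -1 := by linear_combination (-1 : F) * hd1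
      rw [hd']
      linear_combination h0
    · intro h0
      have : c * (c + 1) = 0 := by linear_combination h0
      rcases mul_eq_zero.1 this with h | h
      · exact hc0 h
      · exact hc1 (eq_neg_of_add_eq_zero_left h)
  · refine ⟨1, -d, ?_, hd1⟩
    intro r h0
    apply hd r
    show r ^ 2 - r = d
    linear_combination h0

/-- The parameters of the semisimple class. -/
theorem exists_params [Fintype F] (h3 : 3 ≤ Fintype.card F) :
    ∃ (τ δ : F) (hδ : δ ≠ 0), (∀ r : F, r ^ 2 - τ * r + δ ≠ 0) ∧ δ ≠ 1 ∧
      ((2 : F) ≠ 0 → ∃ P Q : GL (Fin 2) F,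
        P * compGL τ δ hδ * P⁻¹ * (Q * (compGL τ δ hδ)⁻¹ * Q⁻¹) = jGL F) := by
  by_cases h2 : (2 : F) = 0
  · obtain ⟨τ, δ, h1, h4⟩ := exists_noroot h3
    have hδ : δ ≠ 0 := by
      rintro rfl
      exact h1 0 (by simp)
    exact ⟨τ, δ, hδ, h1, h4, fun h => absurd h2 h⟩
  · have ht : (2 : F) * (2 : F)⁻¹ = 1 := mul_inv_cancel₀ h2
    set t := (2 : F)⁻¹ with ht_def
    have ht0 : t ≠ 0 := inv_ne_zero h2
    by_cases hi : IsSquare (-1 : F)
    · have hch : ringChar F ≠ 2 := by
        intro hc
        apply h2
        have := ringChar.Nat.cast_ringChar (R := F)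
        rw [hc] at this
        exact_mod_cast this
      obtain ⟨δ, hδs⟩ := FiniteField.exists_nonsquare hch
      obtain ⟨i, hi⟩ := hi
      have hδ : δ ≠ 0 := by
        rintro rfl
        exact hδs ⟨0, by simp⟩
      have hδ1 : δ ≠ 1 := by
        rintro rfl
        exact hδs ⟨1, by simp⟩
      refine ⟨0, δ, hδ, ?_, hδ1, ?_⟩
      · intro r h0
        exact hδs ⟨i * r, by linear_combination h0 + r ^ 2 * hi⟩
      · intro _
        set d := δ⁻¹ with hd
        have hδd : δ * d = 1 := mul_inv_cancel₀ hδ
        set p := t * (1 - δ) with hp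
        set q := -i * t * (1 + δ) with hq
        have hpq : p * p + q * q = -δ := by
          rw [hp, hq]
          linear_combination (-(t ^ 2 * (1 + δ) ^ 2)) * hi - δ * (2 * t + 1) * ht
        have hd1 : (!![p, q; q, -p] : Matrix (Fin 2) (Fin 2) F).det ≠ 0 := by
          rw [Matrix.det_fin_two_of]
          intro h0
          exact hδ (by linear_combination h0 + hpq)
        have hd2 : (!![-q * d, p * d; p * d, q * d] : Matrix (Fin 2) (Fin 2) F).det ≠ 0 := by
          rw [Matrix.det_fin_two_of]
          intro h0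
          have h00 : (p * p + q * q) * d * d = 0 := by linear_combination (-1 : F) * h0
          rw [hpq] at h00
          have : d = 0 := by linear_combination (-1 : F) * h00 - d * hδd
          exact inv_ne_zero hδ this
        let a' := GeneralLinearGroup.mkOfDetNeZero _ hd1
        let b' := GeneralLinearGroup.mkOfDetNeZero _ hd2
        have ha' : a'.1 = !![p, q; q, -p] := rfl
        have hb' : b'.1 = !![-q * d, p * d; p * d, q * d] := rfl
        have hab : a' * b' = jGL F := by
          apply Units.ext
          show a'.1 * b'.1 = !![0, -1; 1, 0]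
          rw [ha', hb']
          ext i j
          fin_cases i <;> fin_cases j <;> simp [Matrix.mul_apply, Fin.sum_univ_two]
          · ring
          · linear_combination d * hpq - hδd
          · linear_combination (-d) * hpq + hδd
          · ring
        rw [← hab]
        refine factor_of hδ a' b' ?_ ?_ ?_ ?_ ?_ ?_
        · rw [ha']; simp
        · rw [ha']
          simp only [of_apply, cons_val', cons_val_zero, cons_val_one, cons_val_fin_one]
          linear_combination (-1 : F) * hpq
        · rw [ha']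
          simp only [of_apply, cons_val', cons_val_zero, cons_val_one, cons_val_fin_one]
          by_cases hq0 : q = 0
          · right; right
            intro hpp
            have hp0 : p = 0 := by
              have : 2 * p = 0 := by linear_combination hpp
              exact (mul_eq_zero.1 this).resolve_left h2
            rw [hq0, hp0] at hpq
            exact hδ (by linear_combination hpq)
          · exact Or.inl hq0
        · rw [hb']; simp
        · rw [hb']
          simp only [of_apply, cons_val', cons_val_zero, cons_val_one, cons_val_fin_one]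
          linear_combination (-d ^ 2) * hpq + d * hδd
        · rw [hb']
          simp only [of_apply, cons_val', cons_val_zero, cons_val_one, cons_val_fin_one]
          have hd0 : d ≠ 0 := inv_ne_zero hδ
          by_cases hp0 : p = 0
          · right; right
            intro hqq
            have hq0 : q = 0 := by
              have : 2 * d * q = 0 := by linear_combination (-1 : F) * hqq
              exact (mul_eq_zero.1 this).resolve_left (mul_ne_zero h2 hd0)
            rw [hq0, hp0] at hpq
            exact hδ (by linear_combination hpq)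
          · exact Or.inl (mul_ne_zero hp0 hd0)
    · refine ⟨2, 2, h2, ?_, ?_, ?_⟩
      · intro r h0
        exact hi ⟨r - 1, by linear_combination (-1 : F) * h0⟩
      · intro h0
        have : (1 : F) = 0 := by linear_combination h0
        exact one_ne_zero this
      · intro _
        have hd1 : (!![1, -1; 1, 1] : Matrix (Fin 2) (Fin 2) F).det ≠ 0 := by
          rw [Matrix.det_fin_two_of]
          intro h0
          exact h2 (by linear_combination h0)
        have hd2 : (!![t, -t; t, t] : Matrix (Fin 2) (Fin 2) F).det ≠ 0 := by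
          rw [Matrix.det_fin_two_of]
          intro h0
          exact ht0 (by linear_combination h0 - t * ht)
        let a' := GeneralLinearGroup.mkOfDetNeZero _ hd1
        let b' := GeneralLinearGroup.mkOfDetNeZero _ hd2
        have ha' : a'.1 = !![1, -1; 1, 1] := rfl
        have hb' : b'.1 = !![t, -t; t, t] := rfl
        have hab : a' * b' = jGL F := by
          apply Units.ext
          show a'.1 * b'.1 = !![0, -1; 1, 0]
          rw [ha', hb']
          ext i j
          fin_cases i <;> fin_cases j <;> simp [Matrix.mul_apply, Fin.sum_univ_two]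
          · linear_combination (-1 : F) * ht
          · linear_combination ht
        rw [← hab]
        refine factor_of h2 a' b' ?_ ?_ ?_ ?_ ?_ ?_
        · rw [ha']; simp; norm_num
        · rw [ha']; simp; norm_num
        · rw [ha']; simp
        · rw [hb']
          simp only [of_apply, cons_val', cons_val_zero, cons_val_one, cons_val_fin_one]
          linear_combination (1 : F) * ht - ht
        · rw [hb']
          simp only [of_apply, cons_val', cons_val_zero, cons_val_one, cons_val_fin_one]
          linear_combination t * ht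
        · rw [hb']
          simp [ht0]

/-- The companion element has order prime to the characteristic. -/
theorem comp_pow [Fintype F] (p : ℕ) [hp : Fact p.Prime] [CharP F p] {τ δ : F} (hδ : δ ≠ 0)
    (hroot : ∀ r : F, r ^ 2 - τ * r + δ ≠ 0) :
    ∃ N : ℕ, ¬ p ∣ N ∧ (compGL τ δ hδ) ^ N = 1 := by
  classical
  set χ : F[X] := X ^ 2 - C τ * X + C δ with hχ
  have hdeg : χ.natDegree = 2 := by
    rw [hχ]
    compute_degree!
  have hmon : χ.Monic := by
    rw [hχ]
    monicity!
  have hirr : Irreducible χ := by
    rw [hmon.irreducible_iff_roots_eq_zero_of_degree_le_three (by omega) (by omega)]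
    apply Multiset.eq_zero_of_forall_notMem
    intro r hr
    rw [mem_roots hmon.ne_zero, IsRoot, hχ] at hr
    simp only [eval_add, eval_sub, eval_pow, eval_X, eval_mul, eval_C] at hr
    exact hroot r hr
  haveI : Fact (Irreducible χ) := ⟨hirr⟩
  let K := AdjoinRoot χ
  haveI : Module.Finite F K := (AdjoinRoot.powerBasis' hmon).finite
  haveI : Finite K := Module.finite_of_finite F
  haveI : Fintype K := Fintype.ofFinite K
  haveI : CharP K p := charP_of_injective_algebraMap (algebraMap F K).injective p
  have hev : aeval (Mat.comp τ δ) χ = 0 := by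
    rw [hχ]
    simp only [map_add, map_sub, map_pow, map_mul, aeval_X, aeval_C]
    ext i j
    fin_cases i <;> fin_cases j <;>
      simp [Mat.comp, pow_two, Matrix.mul_apply, Fin.sum_univ_two,
        Matrix.algebraMap_matrix_apply] <;> ring
  have hθ : AdjoinRoot.root χ ≠ 0 := by
    intro h0
    rw [AdjoinRoot.root, AdjoinRoot.mk_eq_zero] at h0
    have := natDegree_le_of_dvd h0 X_ne_zero
    rw [hdeg, natDegree_X] at this
    omega
  refine ⟨Fintype.card K - 1, ?_, ?_⟩
  · obtain ⟨n, -, hn⟩ := FiniteField.card K p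
    have hdvd : p ∣ Fintype.card K := by
      rw [hn]
      exact dvd_pow_self _ n.ne_zero
    intro hdvd2
    have hcard : 0 < Fintype.card K := Fintype.card_pos
    have h1 : p ∣ 1 := by
      have := (Nat.dvd_sub hdvd hdvd2)
      rwa [Nat.sub_sub_self hcard] at this
    exact hp.out.one_lt.ne' (Nat.dvd_one.1 h1)
  · apply Units.ext
    rw [Units.val_pow_eq_pow_val, Units.val_one]
    show (Mat.comp τ δ) ^ _ = 1
    have h1 := FiniteField.pow_card_sub_one_eq_one (AdjoinRoot.root χ) hθ
    have h2 : AdjoinRoot.mk χ (X ^ (Fintype.card K - 1)) = AdjoinRoot.mk χ 1 := by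
      rw [map_pow, map_one]
      exact h1
    obtain ⟨q, hq⟩ := AdjoinRoot.mk_eq_mk.1 h2
    have h3 := congrArg (aeval (Mat.comp τ δ)) hq
    rw [map_mul, hev, zero_mul, map_sub, map_pow, aeval_X, map_one] at h3
    exact sub_eq_zero.1 h3

end Cfsg.Agent.Lib.SpCover.Param
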